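import Mathlib
import Cfsg.Agent.MaxN.Cases
import Cfsg.Agent.Class.SL2Cover
import Cfsg.Agent.FGS.Dedekind

/-! The structure of the group above `PSL₂(13)`. -/

set_option autoImplicit false
set_option linter.unusedSectionVars false

namespace Cfsg.Agent.MaxN

open Subgroup MatrixGroups Cfsg.Agent.Class.Dickson Cfsg.Agent.JTW.PA Cfsg.Agent.KSG.M2

local notation "𝐍[" H "]" => Subgroup.normalizer (SetLike.coe H)

variable {G : Type*} [Group G] [Finite G]

theorem commute_of_pow {p l k j : ℕ} (hc : p.Coprime l) {g r : G} (hg : g ^ p ^ k = 1)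
    (hr : r ^ l ^ j = 1) {m : ℤ} (h : r * g * r⁻¹ = g ^ m) (hm : (p : ℤ) ∣ m - 1) :
    r * g = g * r := by
  have key : ∀ n : ℕ, r ^ n * g * (r ^ n)⁻¹ = g ^ m ^ n := fun n => by
    induction n with
    | zero => simp
    | succ n ih =>
      calc _ = r * (r ^ n * g * (r ^ n)⁻¹) * r⁻¹ := by rw [pow_succ']; group
        _ = _ := by rw [ih, ← conj_zpow, h, ← zpow_mul, pow_succ']
  obtain ⟨c, hc'⟩ := dvd_sub_pow_of_dvd_sub hm k
  have e := key (p ^ k)
  rw [one_pow, sub_eq_iff_eq_add] at hc'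
  rw [hc', pow_succ, mul_assoc ((p : ℤ) ^ k), zpow_add, zpow_mul, ← Nat.cast_pow, zpow_natCast, hg,
    one_zpow, one_mul, zpow_one, mul_inv_eq_iff_eq_mul] at e
  exact mem_centralizer_singleton_iff.1 (FGS.mem_of_pow_mem_of_coprime
    ((Nat.Coprime.pow j k hc.symm).coprime_dvd_left (orderOf_dvd_of_pow_eq_one hr))
    (mem_centralizer_singleton_iff.2 e))

theorem exists_order_prime {r : G} {l : ℕ} (hl : l.Prime) (h : l ∣ orderOf r) :
    ∃ y ∈ zpowers r, orderOf y = l := by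
  have := Fact.mk hl
  obtain ⟨⟨y, hy⟩, e⟩ := exists_prime_orderOf_dvd_card' (G := zpowers r) l
    (by rwa [Nat.card_zpowers])
  exact ⟨y, hy, (orderOf_coe (⟨y, hy⟩ : zpowers r)).trans e⟩

theorem isPGroup_zpowers {A : Type*} [Group A] {r : A} {p j : ℕ} (h : r ^ p ^ j = 1) :
    IsPGroup p (zpowers r) := fun y =>
  ⟨j, Subtype.ext (orderOf_dvd_iff_pow_eq_one.1
    ((orderOf_dvd_of_mem_zpowers y.2).trans (orderOf_dvd_of_pow_eq_one h)))⟩

variable {F : Type*} [Field F] [Fintype F]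

theorem exists_inverted (hF : Fintype.card F = 13) {l : ℕ} (hl : l = 3 ∨ l = 7 ∨ l = 13) :
    ∃ x w : PSL(2, F), orderOf x = l ∧ w * x * w⁻¹ = x⁻¹ := by
  have hp : (Fintype.card F).Prime := by rw [hF]; norm_num
  have key : ∀ l : ℕ, l.Prime → l ∣ 1092 → l ≠ 13 →
      ∃ x w : PSL(2, F), orderOf x = l ∧ w * x * w⁻¹ = x⁻¹ := by
    intro l hl hd h13
    have := Fact.mk hl
    obtain ⟨x, hx⟩ := exists_prime_orderOf_dvd_card' (G := PSL(2, F)) l (by
      rwa [card_PSL_eq hF (n := 1092) (by norm_num)])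
    obtain ⟨c, s, xc, -, sc, -⟩ := exists_torus' (two_ne_of_prime hp (by omega)) (x := x) (by
      rwa [hx, ringChar_eq hp, hF, Nat.prime_dvd_prime_iff_eq hl (by norm_num)])
    exact ⟨x, s, hx, conj_inv_of_mem sc xc⟩
  rcases hl with rfl | rfl | rfl
  · exact key 3 (by norm_num) (by norm_num) (by norm_num)
  · exact key 7 (by norm_num) (by norm_num) (by norm_num)
  have : Fact (Nat.Prime 13) := ⟨by norm_num⟩
  have : CharP F 13 := charP_of_card_eq_prime hF
  have h13 : (13 : F) = 0 := CharP.cast_eq_zero F 13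
  have h5 : (5 : F) * (-5) = 1 := by linear_combination (-2) * h13
  refine ⟨pr (upar 1 (one_pow 2) 1), pr (dg (Units.mkOfMulEqOne 5 (-5) h5)),
    orderOf_eq_prime (pr_pow_char_eq_one 13 (by rw [trace_upar]; norm_num))
      (mt pr_eq_one_iff.1 (upar_not_isScal _ _ one_ne_zero)), ?_⟩
  rw [← map_inv, ← map_inv, ← map_mul, ← map_mul]
  congr 1
  rw [mul_inv_eq_iff_eq_mul, eq_inv_mul_iff_mul_eq, ← mul_assoc]
  ext i j
  have h5' : (5 : F)⁻¹ = -5 := inv_eq_of_mul_eq_one_right h5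
  fin_cases i <;> fin_cases j <;> simp [Matrix.mul_apply, h5']

/-- The situation above the quotient `PSL₂(13)`. -/
structure Top (π : G →* PSL(2, F)) (K : Subgroup G) : Prop where
  hyp : Hyp0 G
  ker : π.ker = solvableRadical G
  card : Fintype.card F = 13
  normal : K.Normal
  map : K.map π = ⊤
  min : ∀ C : Subgroup G, C.Normal → C.map π = ⊤ → ¬ C < K

theorem exists_top (h : Hyp0 G) {π : G →* PSL(2, F)} (hs : Function.Surjective π)
    (hk : π.ker = solvableRadical G) (hF : Fintype.card F = 13) : ∃ K, Top π K := by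
  obtain ⟨K, ⟨h1, h2⟩, h3⟩ := WellFounded.has_min (wellFounded_lt (α := Subgroup G))
    {K | K.Normal ∧ K.map π = ⊤} ⟨⊤, inferInstance, map_top_of_surjective π hs⟩
  exact ⟨K, h, hk, hF, h1, h2, fun C h1 h2 => h3 C ⟨h1, h2⟩⟩

namespace Top

variable {π : G →* PSL(2, F)} {K : Subgroup G} (h : Top π K)
include h

theorem surjK (x : PSL(2, F)) : ∃ k ∈ K, π k = x := h.map.ge (mem_top x)

theorem surj : Function.Surjective π := fun x => (h.surjK x).imp fun _ h => h.2

theorem four_le : 4 ≤ Nat.card F := by rw [Nat.card_eq_fintype_card, h.card]; decide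

theorem two_ne : (2 : F) ≠ 0 := two_ne_of_prime (by rw [h.card]; norm_num) (by rw [h.card]; decide)

theorem simple : IsSimpleGroup PSL(2, F) :=
  Matrix.ProjectiveSpecialLinearGroup.rank_two_simple h.four_le

theorem cardL : Nat.card PSL(2, F) = 1092 := card_PSL_eq h.card (by norm_num)

theorem perfectL : ⁅(⊤ : Subgroup PSL(2, F)), (⊤ : Subgroup PSL(2, F))⁆ = ⊤ := by
  have := congrArg (Subgroup.map (pslMk F)) (SL2_commutator_eq_top h.four_le)
  rwa [_root_.commutator_def, map_commutator, map_top_of_surjective _ pslMk_surjective] at this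

theorem radL : solvableRadical PSL(2, F) = ⊥ := by
  have := h.simple
  refine (FGS.solvableRadical_normal _).eq_bot_or_eq_top.resolve_right fun e => ?_
  have := FGS.solvableRadical_eq_top_iff.1 e
  exact (Group.IsSolvable.commutator_lt_top_of_nontrivial PSL(2, F)).ne h.perfectL

theorem le_of {C : Subgroup G} (hC : C.Normal) (hm : C.map π = ⊤) : ⁅K, C⁆ = K := by
  have := h.normal
  exact (commutator_le_left K C).eq_of_not_lt (h.min _ inferInstance (by
    rw [map_commutator, h.map, hm, h.perfectL]))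

theorem perfect : commutator K = ⊤ := by
  refine map_injective K.subtype_injective ?_
  rw [_root_.commutator_def, map_commutator, ← MonoidHom.range_eq_map, range_subtype,
    h.le_of h.normal h.map]

theorem mem_norm {H : Subgroup G} (hb : Bip (Nat.card H)) {y : G} (hy : y ∈ H) (h1 : π y ≠ 1)
    {g : G} (hg : π g ∈ 𝐍[H.map π]) : g ∈ 𝐍[H] := by
  rw [h.hyp.normalizer_eq h.surj h.ker h.radL hb fun e => h1 (h.ker.ge (e hy))]
  exact hg

theorem mem_norm_zpowers {y : G} (hb : Bip (Nat.card (zpowers y))) (h1 : π y ≠ 1)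
    {g : G} (hg : π g * π y * (π g)⁻¹ ∈ zpowers (π y)) : g ∈ 𝐍[zpowers y] :=
  h.mem_norm hb (mem_zpowers y) h1 (by rwa [MonoidHom.map_zpowers, mem_normalizer_zpowers])

theorem exists_plift {p : ℕ} (hp : p.Prime) {P : Subgroup PSL(2, F)} (hP : IsPGroup p P) :
    ∃ P₀ ≤ K, IsPGroup p P₀ ∧ P₀.map π = P := by
  have := Fact.mk hp
  obtain ⟨H, e, hH⟩ := exists_lift (π.comp K.subtype) (H := P) fun x _ => by
    obtain ⟨k, hk, rfl⟩ := h.surjK x
    exact ⟨⟨k, hk⟩, rfl⟩
  refine ⟨H.map K.subtype, map_subtype_le H, IsPGroup.map ?_ _, by rw [map_map, e]⟩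
  obtain ⟨n, hn⟩ := IsPGroup.iff_card.1 hP
  exact IsPGroup.of_card (Nat.eq_prime_pow_of_unique_prime_dvd Nat.card_pos.ne' fun {r} hr hd =>
    (Nat.prime_dvd_prime_iff_eq hr hp).1 (hr.dvd_of_dvd_pow (hn ▸ hH r hr hd)))

theorem exists_elt {p : ℕ} (hp : p.Prime) {x : PSL(2, F)} (hx : x ^ p = 1) :
    ∃ g ∈ K, π g = x ∧ ∃ k, g ^ p ^ k = 1 := by
  obtain ⟨P, hK, hP, e⟩ := h.exists_plift hp (P := zpowers x)
    (isPGroup_zpowers (j := 1) (by rwa [pow_one]))
  obtain ⟨g, hg, e'⟩ := e.ge (mem_zpowers x)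
  obtain ⟨k, hk⟩ := hP ⟨g, hg⟩
  exact ⟨g, hK hg, e', k, congrArg Subtype.val hk⟩

theorem commute {k r : G} (hk : k ∈ K) (hr : π r = 1) : k * r = r * k := by
  refine (mem_centralizer_singleton_iff.1 (FGS.mem_of_forall_primePow_part
    (H := centralizer {k}) fun l hl z hz hz' => ?_)).symm
  set C := centralizer {r : G | π r = 1 ∧ ∃ j, r ^ l ^ j = 1}
  have hC : C.Normal := ⟨fun c hc g r ⟨h1, j, hj⟩ => by
    have := hc (g⁻¹ * r * g⁻¹⁻¹) ⟨by simp [h1], j, by rw [conj_pow, hj]; simp⟩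
    calc r * (g * c * g⁻¹) = g * (g⁻¹ * r * g⁻¹⁻¹ * c) * g⁻¹ := by group
      _ = _ := by rw [this]; group⟩
  obtain ⟨p, hp, hpl, x, hx⟩ : ∃ p : ℕ, p.Prime ∧ p ≠ l ∧ ∃ x : PSL(2, F), orderOf x = p := by
    by_cases e : l = 2
    · exact ⟨3, Nat.prime_three, by omega, CIT.L2C.exists_three⟩
    · exact ⟨2, Nat.prime_two, Ne.symm e, CIT.L2C.exists_two⟩
  obtain ⟨g, -, rfl, k, hk⟩ := h.exists_elt hp (x := x) (by rw [← hx, pow_orderOf_eq_one])
  have g1 : π g ≠ 1 := fun e => hp.ne_one (by rw [← hx, e, orderOf_one])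
  have hg : g ∈ C := by
    rintro r ⟨h1, j, hj⟩
    obtain ⟨m, hm⟩ := mem_normalizer_zpowers.1 (h.mem_norm_zpowers (bip_zpowers hp hk) g1 (g := r)
      (by simp [h1]))
    refine commute_of_pow ((Nat.coprime_primes hp hl).2 hpl) hk hj hm.symm ?_
    have := congrArg π hm
    simp only [map_zpow, map_mul, map_inv, h1, one_mul, inv_one, mul_one] at this
    rw [← hx, orderOf_dvd_iff_zpow_eq_one, zpow_sub, this, zpow_one, mul_inv_cancel]
  have := h.simple
  have := h.normal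
  have hKC : K ≤ C := h.le_of hC ((hC.map π h.surj).eq_bot_or_eq_top.resolve_left fun e =>
    g1 (by simpa [e] using mem_map_of_mem π hg)) ▸ commutator_le_right K C
  obtain ⟨m, rfl⟩ := hz
  exact mem_centralizer_singleton_iff.2 (hKC ‹_› _ ⟨by simp [hr], hz'⟩)

theorem not_dvd {l : ℕ} (hl : l = 3 ∨ l = 7 ∨ l = 13) {r : G} (hr : π r = 1) :
    ¬ l ∣ orderOf r := by
  intro hd
  have hp : l.Prime := by rcases hl with rfl | rfl | rfl <;> norm_num
  obtain ⟨r, hr', ho⟩ := exists_order_prime hp hd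
  replace hr : π r = 1 := by
    obtain ⟨m, rfl⟩ := hr'
    simp [hr]
  obtain ⟨x, w, hx, hw⟩ := exists_inverted h.card hl
  obtain ⟨g, gK, rfl, k, hk⟩ := h.exists_elt hp (x := x) (by rw [← hx, pow_orderOf_eq_one])
  obtain ⟨w, wK, rfl⟩ := h.surjK w
  have g1 : π g ≠ 1 := fun e => hp.ne_one (by rw [← hx, e, orderOf_one])
  have gr : Commute g r := h.commute gK hr
  have wr : Commute w r := h.commute wK hr
  have e0 : π (g * r) = π g := by rw [map_mul, hr, mul_one]
  obtain ⟨a, ha⟩ := mem_normalizer_zpowers.1 (h.mem_norm_zpowers (bip_zpowers hp hk) g1 (g := w)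
    (hw ▸ inv_mem (mem_zpowers _)))
  obtain ⟨b, hb⟩ := mem_normalizer_zpowers.1 (h.mem_norm_zpowers
    (bip_zpowers_mul hp hp gr hk (l := 1) (by rw [pow_one, ← ho, pow_orderOf_eq_one]))
    (e0 ▸ g1) (g := w) (by rw [e0, hw]; exact inv_mem (mem_zpowers _)))
  simp only at ha hb
  have inv : ∀ a : ℤ, π g ^ a = (π g)⁻¹ → r ^ a = r⁻¹ := fun a e => by
    rw [eq_inv_iff_mul_eq_one, ← zpow_add_one, ← orderOf_dvd_iff_zpow_eq_one] at e ⊢
    rwa [ho, ← hx]
  have ra := inv a (by rw [← map_zpow, ha, map_mul, map_mul, map_inv, hw])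
  have rb := inv b (by rw [← e0, ← map_zpow, hb, map_mul, map_mul, map_inv, e0, hw])
  have e1 : r * r = g ^ (b - a) := by
    rw [gr.mul_zpow, rb, show w * (g * r) * w⁻¹ = w * g * w⁻¹ * (w * r * w⁻¹) by group, ← ha,
      wr.eq, mul_inv_cancel_right] at hb
    rw [sub_eq_neg_add, zpow_add, zpow_neg, eq_inv_mul_iff_mul_eq, ← mul_assoc, ← hb,
      inv_mul_cancel_right]
  have e2 : w * (r * r) * w⁻¹ = (r * r) ^ a := by
    rw [e1, ← conj_zpow, ← ha, ← zpow_mul, ← zpow_mul, mul_comm]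
  rw [(wr.mul_right wr).eq, mul_inv_cancel_right, (Commute.refl r).mul_zpow, ra] at e2
  have e3 : r ^ 4 = 1 := by
    calc r ^ 4 = r * r * (r * r) := by simp only [pow_succ, pow_zero, one_mul, mul_assoc]
      _ = 1 := by nth_rewrite 1 [e2]; group
  have := orderOf_dvd_of_pow_eq_one e3
  rw [ho] at this
  rcases hl with rfl | rfl | rfl <;> norm_num at this

theorem two_mem {r : G} (hr : π r = 1) {j : ℕ} (hj : r ^ 2 ^ j = 1) : r ∈ K := by
  obtain ⟨a, b, w, V, e1, e2, -⟩ := exists_klein h.two_ne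
  obtain ⟨P, PK, hP, hm⟩ := h.exists_plift Nat.prime_two (P := V.sub)
    (IsPGroup.of_card (n := 2) V.isKleinFour.card_four)
  obtain ⟨v₁, h₁, rfl⟩ := hm.ge (V.mem_sub.2 (Or.inr (Or.inl rfl)))
  obtain ⟨v₂, h₂, rfl⟩ := hm.ge (V.mem_sub.2 (Or.inr (Or.inr (Or.inl rfl))))
  obtain ⟨w, wK, rfl⟩ := h.surjK w
  set H := closure {v₁ * r, v₂}
  have m₁ : v₁ * r ∈ H := subset_closure (Or.inl rfl)
  have m₂ : v₂ ∈ H := subset_closure (Or.inr rfl)
  have e0 : π (v₁ * r) = π v₁ := by rw [map_mul, hr, mul_one]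
  have hH : IsPGroup 2 H := by
    refine IsPGroup.to_le (K := P ⊔ zpowers r) (IsPGroup.to_sup_of_normal_right' hP
      (isPGroup_zpowers hj) fun x hx =>
      mem_normalizer_of_commute (h.commute (PK hx) hr)) ((closure_le _).2 ?_)
    rintro _ (rfl | rfl)
    · exact mul_mem_sup h₁ (mem_zpowers r)
    · exact mem_sup_left h₂
  have hHm : H.map π = V.sub := by
    refine le_antisymm (map_le_iff_le_comap.2 ((closure_le _).2 ?_)) fun y hy => ?_
    · rintro _ (rfl | rfl)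
      · exact V.mem_sub.2 (Or.inr (Or.inl e0))
      · exact V.mem_sub.2 (Or.inr (Or.inr (Or.inl rfl)))
    · rcases V.mem_sub.1 hy with rfl | rfl | rfl | rfl
      · exact one_mem _
      · exact ⟨_, m₁, e0⟩
      · exact ⟨_, m₂, rfl⟩
      · exact ⟨_, mul_mem m₁ m₂, by rw [map_mul, e0]⟩
  have hw : w ∈ 𝐍[H] := h.mem_norm (bip_of_isPGroup Nat.prime_two hH) m₂ V.ne_one_right (by
    rw [hHm]
    refine mem_normalizer_fintype fun y hy => V.mem_sub.2 ?_
    rcases V.mem_sub.1 hy with rfl | rfl | rfl | rfl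
    · simp
    · simp [e1]
    · simp [e2]
    · refine Or.inr (Or.inl ?_)
      calc _ = π w * π v₁ * (π w)⁻¹ * (π w * π v₂ * (π w)⁻¹) := by group
        _ = _ := by rw [e1, e2, ← mul_assoc, ← V.comm, mul_assoc, V.sq_right, mul_one])
  have ab : Commute (π v₁) (π v₂) := V.comm
  have inv : ∀ y ∈ H, ∃ e f : ℤ, y * r ^ (-e) ∈ K ∧ π y = π v₁ ^ e * π v₂ ^ f := by
    intro y hy
    induction hy using closure_induction with
    | mem y hy =>
      rcases hy with rfl | rfl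
      · exact ⟨1, 0, by simpa using PK h₁, by simp [hr]⟩
      · exact ⟨0, 1, by simpa using PK h₂, by simp⟩
    | one => exact ⟨0, 0, by simp, by simp⟩
    | mul y z _ _ hy hz =>
      obtain ⟨e, f, y1, y2⟩ := hy
      obtain ⟨e', f', z1, z2⟩ := hz
      refine ⟨e + e', f + f', ?_, ?_⟩
      · have c : Commute (z * r ^ (-e')) (r ^ (-e)) := Commute.zpow_right (h.commute z1 hr) _
        have := mul_mem y1 z1
        rwa [mul_assoc y, ← c.eq, mul_assoc z, ← zpow_add, ← mul_assoc, ← neg_add, add_comm] at this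
      · rw [map_mul, y2, z2, zpow_add, zpow_add]
        exact ((ab.zpow_zpow e' f).symm.mul_mul_mul_comm _ _)
    | inv y _ hy =>
      obtain ⟨e, f, y1, y2⟩ := hy
      refine ⟨-e, -f, ?_, ?_⟩
      · have c : Commute (y * r ^ (-e)) (r ^ e) := Commute.zpow_right (h.commute y1 hr) _
        have := inv_mem y1
        have e3 : (y * r ^ (-e))⁻¹ = y⁻¹ * r ^ (- -e) := by
          rw [neg_neg, inv_eq_iff_mul_eq_one]
          have c2 : y = r ^ e * (y * r ^ (-e)) := by rw [← c.eq]; group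
          calc _ = y * (r ^ (-e) * y⁻¹) * r ^ e := by group
            _ = r ^ (-e) * r ^ e := by
              rw [show y * (r ^ (-e) * y⁻¹) = r ^ (-e) * (r ^ e * (y * r ^ (-e))) * y⁻¹ by group,
                ← c2, mul_inv_cancel_right]
            _ = 1 := by group
        rwa [e3] at this
      · rw [map_inv, y2, mul_inv_rev, ← zpow_neg, ← zpow_neg]
        exact (ab.zpow_zpow _ _).eq.symm
  obtain ⟨e, f, y1, y2⟩ := inv _ ((mem_normalizer_iff.1 hw v₂).1 m₂)
  rw [map_mul, map_mul, map_inv, e2] at y2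
  have hrK : r ^ (-e) ∈ K := (mul_mem_cancel_left (h.normal.conj_mem _ (PK h₂) w)).1 y1
  obtain ⟨e, rfl | rfl⟩ := Int.even_or_odd' e
  · rw [zpow_mul, zpow_two, V.sq_left, one_zpow, one_mul] at y2
    rcases eq_or_of_mem_zpowers V.sq_right ⟨f, y2.symm⟩ with e | e
    · exact absurd e V.mul_ne_one
    · exact absurd (mul_eq_right.1 e) V.ne_one_left
  · refine FGS.mem_of_pow_mem_of_coprime (m := (2 * e + 1).natAbs)
      ((Nat.Coprime.pow_left j ((Nat.coprime_two_left).2 ?_)).coprime_dvd_left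
        (orderOf_dvd_of_pow_eq_one hj)) ?_
    · exact Int.natAbs_odd.2 ⟨e, rfl⟩
    · rw [← zpow_natCast]
      rcases Int.natAbs_eq (2 * e + 1) with e' | e'
      · rw [← e', ← inv_mem_iff, ← zpow_neg]
        exact hrK
      · rwa [e', neg_neg] at hrK

open scoped IsMulCommutative in
theorem pow_four {z : G} (hz : z ∈ K) (h1 : π z = 1) : z ^ 4 = 1 := by
  have e := Abelianization.commutator_subset_ker (MonoidHom.transferCenterPow K)
    (h.perfect.ge (mem_top ⟨z, hz⟩))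
  have e1 : z ^ (center K).index = 1 := congrArg (fun y : center K => ((y : K) : G)) e
  have hs : Function.Surjective (π.comp K.subtype) := fun x => by
    obtain ⟨k, hk, rfl⟩ := h.surjK x
    exact ⟨⟨k, hk⟩, rfl⟩
  have hd : (center K).index ∣ 4 * (3 * (7 * 13)) := by
    have : (π.comp K.subtype).ker ≤ center K := fun y hy =>
      mem_center_iff.2 fun k => Subtype.ext (h.commute k.2 hy)
    have := index_dvd_of_le this
    rwa [index_ker, MonoidHom.range_eq_top.2 hs, card_top, h.cardL] at this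
  have co : ∀ l : ℕ, l = 3 ∨ l = 7 ∨ l = 13 → (orderOf z).Coprime l := fun l hl =>
    ((Nat.Prime.coprime_iff_not_dvd (by rcases hl with rfl | rfl | rfl <;> norm_num)).2
      (h.not_dvd hl h1)).symm
  exact orderOf_dvd_iff_pow_eq_one.1 (((co 3 (by simp)).mul_right ((co 7 (by simp)).mul_right
    (co 13 (by simp)))).dvd_of_dvd_mul_right ((orderOf_dvd_of_pow_eq_one e1).trans hd))

theorem equiv : Nonempty (K ≃* PSL(2, F)) ∨ Nonempty (K ≃* SL(2, F)) := by
  have hs : Function.Surjective (π.comp K.subtype) := fun x => by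
    obtain ⟨k, hk, rfl⟩ := h.surjK x
    exact ⟨⟨k, hk⟩, rfl⟩
  obtain ⟨ψ, h1, h2⟩ := exists_hom_SL2_of_cover h.two_ne h.four_le h.perfect (π.comp K.subtype) hs
    (fun y hy => mem_center_iff.2 fun k => Subtype.ext (h.commute k.2 hy))
    fun z => ⟨2, Subtype.ext (Subtype.ext (h.pow_four z.1.2 z.2))⟩
  by_cases e : ψ (-1) = 1
  · refine Or.inl ⟨MulEquiv.ofBijective _ ⟨(injective_iff_map_eq_one _).2 fun k hk => ?_, hs⟩⟩
    obtain ⟨g, rfl⟩ := h1 k
    rcases pslMk_eq_one_iff.1 ((h2 g).symm.trans hk) with rfl | rfl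
    exacts [map_one _, e]
  · refine Or.inr ⟨(MulEquiv.ofBijective ψ ⟨(injective_iff_map_eq_one _).2 fun g hg => ?_,
      h1⟩).symm⟩
    refine (pslMk_eq_one_iff.1 ?_).resolve_right fun e' => e (e' ▸ hg)
    rw [← h2, hg, map_one]

theorem prime_dvd_card {l : ℕ} (hl : l.Prime) (hd : l ∣ Nat.card K) :
    l = 2 ∨ l = 3 ∨ l = 7 ∨ l = 13 := by
  have := Fact.mk hl
  obtain ⟨⟨z, hz⟩, e⟩ := exists_prime_orderOf_dvd_card' l hd
  rw [← orderOf_coe] at e
  simp only at e
  by_cases h1 : π z = 1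
  · exact Or.inl ((Nat.prime_dvd_prime_iff_eq hl Nat.prime_two).1 (hl.dvd_of_dvd_pow (n := 2)
      (e ▸ orderOf_dvd_of_pow_eq_one (h.pow_four hz h1))))
  · have h2 := orderOf_dvd_natCard (π z)
    rw [orderOf_eq_prime (p := l) (by rw [← map_pow, ← e, pow_orderOf_eq_one, map_one]) h1,
      h.cardL, show 1092 = 2 ^ 2 * (3 * (7 * 13)) from rfl, hl.dvd_mul, hl.dvd_mul,
      hl.dvd_mul] at h2
    rcases h2 with h2 | h2 | h2 | h2
    · exact Or.inl ((Nat.prime_dvd_prime_iff_eq hl Nat.prime_two).1 (hl.dvd_of_dvd_pow h2))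
    all_goals rw [Nat.prime_dvd_prime_iff_eq hl (by norm_num)] at h2; simp [h2]

theorem mem_norm_of_odd {y g : G} (hy : π y = 1) (ho : (orderOf y).Coprime 2) (hg : π g = 1) :
    g * y * g⁻¹ ∈ zpowers y := by
  refine FGS.mem_of_forall_primePow_part (H := (zpowers y).comap (MulAut.conj g).toMonoidHom)
    fun p hp z hz ⟨k, hk⟩ => ?_
  obtain ⟨x, hx⟩ := CIT.L2C.exists_two (F := F)
  obtain ⟨t, tK, rfl, j, hj⟩ := h.exists_elt Nat.prime_two (x := x)
    (orderOf_dvd_iff_pow_eq_one.1 hx.dvd)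
  have z1 : π z = 1 := by
    obtain ⟨m, rfl⟩ := hz
    simp [hy]
  have tz : Commute t z := h.commute tK z1
  have := h.mem_norm_zpowers (bip_zpowers_mul Nat.prime_two hp tz hj hk) (g := g)
    (by rw [map_mul, z1, mul_one]; exact fun e => by simp [e] at hx) (by simp [hg])
  refine zpowers_le.2 hz (mem_normalizer_zpowers.1 (normalizer_zpowers_le ?_ this))
  rw [tz.eq]
  exact left_mem_zpowers_mul ((ho.coprime_dvd_left (orderOf_dvd_of_mem_zpowers hz)).pow_right j)
    tz.symm (pow_orderOf_eq_one z) hj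

/-- The elements of odd order of the solvable radical. -/
def odd : Subgroup G where
  carrier := {y | π y = 1 ∧ (orderOf y).Coprime 2}
  one_mem' := ⟨map_one π, by simp⟩
  inv_mem' := fun ⟨h1, h2⟩ => ⟨by rw [map_inv, h1, inv_one], by rwa [orderOf_inv]⟩
  mul_mem' := by
    rintro x y ⟨x1, ox⟩ ⟨y1, oy⟩
    refine ⟨by rw [map_mul, x1, y1, mul_one], ?_⟩
    obtain ⟨k, hk, e⟩ := exists_mul_pow (mem_normalizer_zpowers.2 (h.mem_norm_of_odd y1 oy x1))
      (orderOf x)
    rw [pow_orderOf_eq_one, one_mul] at e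
    refine (Nat.Coprime.mul_left ox oy).coprime_dvd_left (orderOf_dvd_of_pow_eq_one ?_)
    rw [pow_mul, e]
    exact orderOf_dvd_iff_pow_eq_one.1 (orderOf_dvd_of_mem_zpowers hk)

theorem odd_normal : h.odd.Normal :=
  ⟨fun y ⟨h1, h2⟩ g => ⟨by simp [h1], by
    rwa [show orderOf (g * y * g⁻¹) = orderOf y from (MulAut.conj g).orderOf_eq y]⟩⟩

theorem odd_comm : IsMulCommutative h.odd := by
  refine FGS.Dedekind.isMulCommutative_of_odd (fun H => ⟨fun y hy g => ?_⟩)
    (Nat.coprime_two_right.1 (Transfer.coprime_card_of_forall_orderOf fun y hy => hy.2))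
  obtain ⟨k, hk⟩ := h.mem_norm_of_odd y.2.1 y.2.2 g.2.1
  have : g * y * g⁻¹ = y ^ k := Subtype.ext (by simpa using hk.symm)
  exact this ▸ zpow_mem hy k

theorem coprime : (Nat.card K).Coprime (Nat.card h.odd) := by
  refine Nat.Coprime.symm (Nat.coprime_of_dvd fun l hl h1 h2 => ?_)
  have := Fact.mk hl
  obtain ⟨⟨z, hz⟩, e⟩ := exists_prime_orderOf_dvd_card' l h1
  rw [← orderOf_coe] at e
  simp only at e
  rcases h.prime_dvd_card hl h2 with rfl | h3
  · have := hz.2
    rw [e] at this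
    exact absurd this (by decide)
  · exact h.not_dvd h3 hz.1 e.symm.dvd

theorem sup : K ⊔ h.odd = ⊤ := by
  refine top_unique fun g _ => ?_
  obtain ⟨k, hk, e⟩ := h.surjK (π g)
  have h1 : π (k⁻¹ * g) = 1 := by rw [map_mul, map_inv, e, inv_mul_cancel]
  obtain ⟨u, v, hu, hv, ⟨j, hj⟩, ho, e'⟩ := Transfer.exists_pPart_mul (p := 2) (k⁻¹ * g)
  have m : ∀ y ∈ zpowers (k⁻¹ * g), π y = 1 := by
    rintro _ ⟨m, rfl⟩
    simp only [map_zpow, h1, one_zpow]
  rw [show g = k * u * v by rw [mul_assoc, ← e', mul_inv_cancel_left]]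
  exact mul_mem_sup (mul_mem hk (h.two_mem (m u hu) hj)) ⟨m v hv, ho⟩

end Top

end Cfsg.Agent.MaxN
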